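import Cfsg.Agent.H897.LatW
import Cfsg.Agent.H473.Ab.Toral
import Cfsg.Agent.S1093

/-!
# Elements of order divisible by five in `W(E₆)` and elements of order divisible by 11 or 71 in `E₆(5)` (helper977)

* `exists_w` : an element `x` of order prime to the characteristic of `D.group F` comes with `w ∈ W` such that `w ^ n = 1`
  implies `orderOf x ∣ q ^ n - 1`;
* `pow_ten` : `w ∈ W(E₆)`, `5 ∣ orderOf w` implies `w ^ 10 = 1`;
* `orderOf_dvd` : `x ∈ E₆(5)` of order prime to five, divisible by 11 or 71: `orderOf x ∣ 5 ^ 10 - 1`.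
-/

set_option autoImplicit false
set_option linter.unusedSectionVars false

namespace Cfsg.Agent.H977.E6F

open CoxeterSystem Cfsg Cfsg.Lie Cfsg.Lie.ChevalleyDatum
open Cfsg.Agent.ChevalleyStructure Cfsg.Agent.ChevalleyStructure.Elts Cfsg.Agent.ChevalleyStructure.CoxeterGeom
  Cfsg.Agent.ChevalleyStructure.CoxeterGeomTypes Cfsg.Agent.ChevalleyStructure.NPerm
open Cfsg.Agent.Tits.Roots Cfsg.Agent.Tits.Core Cfsg.Agent.Nodes Cfsg.Agent.Nodes.Reps Cfsg.Agent.Nodes.BNOf
  Cfsg.Agent.Nodes.RGDChev Cfsg.Agent.Nodes.Bruhat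
open Cfsg.Agent.KFacts.RgdField Cfsg.Agent.KFacts.RgdChevCoord Cfsg.Agent.BpExc.TorCent Cfsg.Agent.BpExc.TorChev
open Cfsg.Agent.GpExc.Field Cfsg.Agent.BpExc.Tow Cfsg.Agent.BpExc.TowChev Cfsg.Agent.BpExc.Fr
  Cfsg.Agent.BpExc.LangFr Cfsg.Agent.LangThm Cfsg.Agent.BpExc Cfsg.Agent.H129.TorusChar Cfsg.Agent.H129.TorusMain
  Cfsg.Agent.H129.TorusUntw Cfsg.Agent.H720.TorusReal

universe u

section General

variable {D : ChevalleyDatum} {l : ℕ} {M : CoxeterMatrix (Fin l)} (hp : IsType D l M)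

include hp in
/-- **The element of the Weyl group.** -/
theorem exists_w {W : Type*} [Group W] [Finite W] (cs : CoxeterSystem M W) {F : Type u} [Field F] [Fintype F]
    {r : ℕ} [Fact r.Prime] [hFr : CharP F r] {x : ↥(D.group F)} (hx0 : orderOf x ≠ 0) (hx : (orderOf x).Coprime r) :
    ∃ w : W, ∀ n : ℕ, w ^ n = 1 → orderOf x ∣ Fintype.card F ^ n - 1 := by
  obtain ⟨p, e, hpF, hpc, hpk, he, hq, hk⟩ := exists_closure (F := F) rfl
  have hpr : p = r := CharP.eq F hpc hFr
  subst hpr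
  let k := AlgebraicClosure F
  have hA : BpExc.TorAll.HAlg p k := H944.RootVals.hAlg_closure p F
  have hN : NSys M (TT D k) (nc hp k) := nsys_of_locFin hp cs hk p
  set f := algebraMap F k with hf
  set x' : ↥(D.group k) := emb hp.inList f x with hx'
  have hxo : orderOf x' = orderOf x := orderOf_injective (emb hp.inList f) (emb_injective hp.inList f) x
  obtain ⟨z, t, n, w, h1, h2, h3, h4⟩ := exists_toral hp cs hA hk (fr_phi hp cs) hN (x := x') (σ := phi D k p e)
    (phi_emb hp f hq x) hx0 hx (by rw [← hxo, pow_orderOf_eq_one])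
  have hto : orderOf t = orderOf x := by
    rw [← hxo, h1]
    exact ((MulAut.conj z).orderOf_eq t).symm
  have h5 := (tau_iff hp cs hk isFrob_phi (fr_phi hp cs) h3 h2).1 h4
  refine ⟨w, fun n hn => ?_⟩
  have h6 : ∀ y, cX hp t (rep cs hp.isCartan w y) = cX hp t y ^ Fintype.card F := fun y => by
    rw [hq]
    exact h5 y
  have h7 : ∀ (m : ℕ) y, cX hp t (rep cs hp.isCartan (w ^ m) y) = cX hp t y ^ Fintype.card F ^ m := by
    intro m
    induction m with
    | zero => intro y; rw [pow_zero, pow_zero, map_one, pow_one]; rfl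
    | succ m ih =>
      intro y
      rw [pow_succ', rep_mul_apply, h6, ih, ← pow_mul, pow_succ]
  have hmc := isMC_cX hp h2
  have h8 : t ^ (Fintype.card F ^ n - 1) = 1 := by
    refine cX_inj hp (pow_mem h2 _) (one_mem _) fun i => ?_
    rw [cX_one, cX_pow hp h2]
    have h9 := h7 n (sr i)
    rw [hn, map_one, Module.End.one_apply] at h9
    have h10 : cX hp t (sr i) ≠ 0 := fun h => by
      have h11 := hmc.add (sr i) (-(sr i))
      rw [add_neg_cancel, hmc.zero, h, zero_mul] at h11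
      exact one_ne_zero h11
    have h12 : 1 ≤ Fintype.card F ^ n := Nat.one_le_pow _ _ Fintype.card_pos
    have h13 : cX hp t (sr i) * cX hp t (sr i) ^ (Fintype.card F ^ n - 1) = cX hp t (sr i) * 1 := by
      rw [mul_one, ← pow_succ', Nat.sub_add_cancel h12, ← h9]
    exact mul_left_cancel₀ h10 h13
  rw [← hto]
  exact orderOf_dvd_of_pow_eq_one h8

end General

/-! ### the Weyl group of type `E₆` -/

open Cfsg.Agent.H897.Lat (V bil rf actR rootList rep_simple' bil_rep bil_vec isRoot_iff')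

/-- the product of four simple reflections, an element of order five -/
def Cf (x : V) : V := rf (sr 0) (rf (sr 2) (rf (sr 3) (rf (sr 4) x)))

/-- the sum over the powers -/
def Nf (x : V) : V := x + Cf x + Cf (Cf x) + Cf (Cf (Cf x)) + Cf (Cf (Cf (Cf x)))

def va : V := ![1, 2, 2, 3, 2, 1]

def vt : V := ![1, 0, 2, 3, 4, 5]

theorem Cf_pow : ∀ i : Fin 6, Cf (Cf (Cf (Cf (Cf (sr i))))) = sr i := by decide +kernel

theorem Cf_e0 : Cf (sr 0) = sr 2 ∧ Cf (sr 2) = sr 3 ∧ Cf (sr 3) = sr 4 := by decide +kernel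

theorem Nf_e0 : Nf (sr 0) = 0 := by decide +kernel

theorem Cf_va : Cf va = va := by decide +kernel

theorem Nf_b : Nf (sr 5) = vt := by decide +kernel

theorem mem_roots : (∀ i : Fin 6, (sr i : V) ∈ rootList) ∧ va ∈ rootList := by decide +kernel

/-- the roots like `e0` -/
theorem roots_e0 : ∀ r ∈ rootList, Nf r = 0 → bil r (Cf r) = bil (sr 0) (Cf (sr 0)) →
    (r = sr 0 ∨ r = Cf (sr 0) ∨ r = Cf (Cf (sr 0)) ∨ r = Cf (Cf (Cf (sr 0))) ∨ r = Cf (Cf (Cf (Cf (sr 0))))) ∨
    (r = -sr 0 ∨ r = -Cf (sr 0) ∨ r = -Cf (Cf (sr 0)) ∨ r = -Cf (Cf (Cf (sr 0))) ∨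
      r = -Cf (Cf (Cf (Cf (sr 0))))) := by decide +kernel

/-- the fixed roots -/
theorem roots_va : ∀ r ∈ rootList, Cf r = r → r = va ∨ r = -va := by decide +kernel

/-- the last vector -/
theorem roots_vt : ∀ r ∈ rootList, bil (Nf r) va = 0 → bil (Nf r) (Nf r) = bil vt vt → Nf r = vt ∨ Nf r = -vt := by
  decide +kernel

theorem comb1 : (10 : ℤ) • (sr 1 : V) = -4 • sr 0 + (-8 : ℤ) • sr 2 + (-12 : ℤ) • sr 3 + (-6 : ℤ) • sr 4 +
    (5 : ℤ) • va + (-1 : ℤ) • vt := by decide +kernel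

theorem comb5 : (5 : ℤ) • (sr 5 : V) = (-1 : ℤ) • sr 0 + (-2 : ℤ) • sr 2 + (-3 : ℤ) • sr 3 + (-4 : ℤ) • sr 4 + vt := by
  decide +kernel

theorem bil_va_vt : bil vt va = 0 := by decide +kernel

section Lat

variable {C B : Module.End ℤ V}

theorem iterate_e0 (hCB : Commute B C) {v : V} {j : ℕ} (h : B v = (C ^ j) v) (n : ℕ) : (B ^ n) v = (C ^ (j * n)) v := by
  induction n with
  | zero => rfl
  | succ n ih =>
    have h1 : (B ^ n) ((C ^ j) v) = (C ^ j) ((B ^ n) v) := by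
      rw [← Module.End.mul_apply, ← Module.End.mul_apply, ((hCB.pow_pow n j)).eq]
    rw [pow_succ, Module.End.mul_apply, h, h1, ih, ← Module.End.mul_apply, ← pow_add, mul_add, mul_one, add_comm]

/-- **An isometry of the root lattice which permutes the roots and commutes with `C`.** -/
theorem pow_ten_lat (hC : ∀ x, C x = Cf x) (hCB : Commute B C) (hbil : ∀ x y, bil (B x) (B y) = bil x y)
    (hroot : ∀ a ∈ rootList, B a ∈ rootList) : B ^ 10 = 1 := by
  have hcm : ∀ x, B (Cf x) = Cf (B x) := fun x => by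
    rw [← hC, ← hC, ← Module.End.mul_apply, ← Module.End.mul_apply, hCB.eq]
  have hN : ∀ x, B (Nf x) = Nf (B x) := fun x => by
    unfold Nf
    simp only [map_add, hcm]
  have hC5 : C ^ 5 = 1 := by
    refine LinearMap.pi_ext' fun i => LinearMap.ext_ring ?_
    change (C ^ 5) (Pi.single i 1) = Pi.single i 1
    have h1 : (Pi.single i (1 : ℤ) : V) = sr i := rfl
    rw [h1, show (5 : ℕ) = 0 + 1 + 1 + 1 + 1 + 1 from rfl]
    simp only [pow_succ, pow_zero, one_mul, Module.End.mul_apply, hC]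
    exact Cf_pow i
  have hneg : ∀ x, Cf (-x) = -Cf x := fun x => by rw [← hC, ← hC, map_neg]
  have e2 : sr 2 = Cf (sr 0) := Cf_e0.1.symm
  -- the image of `e0`
  have h0 : ∃ j, (B ^ 2) (sr 0) = (C ^ j) (sr 0) := by
    have h1 := roots_e0 (B (sr 0)) (hroot _ (mem_roots.1 0)) (by rw [← hN, Nf_e0, map_zero])
      (by rw [← hcm, hbil])
    have hj : ∀ j, B (sr 0) = (C ^ j) (sr 0) ∨ B (sr 0) = -(C ^ j) (sr 0) →
        (B ^ 2) (sr 0) = (C ^ (j * 2)) (sr 0) := by
      rintro j (h | h)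
      · exact iterate_e0 hCB h 2
      · have h2 : (-B) (sr 0) = (C ^ j) (sr 0) := by rw [LinearMap.neg_apply, h, neg_neg]
        have h3 := iterate_e0 (hCB.neg_left) h2 2
        rwa [neg_sq] at h3
    have c0 : (C ^ 0) (sr 0) = sr 0 := rfl
    have c1 : (C ^ 1) (sr 0) = Cf (sr 0) := by rw [pow_one, hC]
    have c2 : (C ^ 2) (sr 0) = Cf (Cf (sr 0)) := by rw [pow_succ, Module.End.mul_apply, pow_one, hC, hC]
    have c3 : (C ^ 3) (sr 0) = Cf (Cf (Cf (sr 0))) := by
      rw [pow_succ', Module.End.mul_apply, c2, hC]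
    have c4 : (C ^ 4) (sr 0) = Cf (Cf (Cf (Cf (sr 0)))) := by
      rw [pow_succ', Module.End.mul_apply, c3, hC]
    rcases h1 with (h | h | h | h | h) | (h | h | h | h | h)
    · exact ⟨_, hj 0 (Or.inl (by rw [c0]; exact h))⟩
    · exact ⟨_, hj 1 (Or.inl (by rw [c1]; exact h))⟩
    · exact ⟨_, hj 2 (Or.inl (by rw [c2]; exact h))⟩
    · exact ⟨_, hj 3 (Or.inl (by rw [c3]; exact h))⟩
    · exact ⟨_, hj 4 (Or.inl (by rw [c4]; exact h))⟩
    · exact ⟨_, hj 0 (Or.inr (by rw [c0]; exact h))⟩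
    · exact ⟨_, hj 1 (Or.inr (by rw [c1]; exact h))⟩
    · exact ⟨_, hj 2 (Or.inr (by rw [c2]; exact h))⟩
    · exact ⟨_, hj 3 (Or.inr (by rw [c3]; exact h))⟩
    · exact ⟨_, hj 4 (Or.inr (by rw [c4]; exact h))⟩
  have f0 : (B ^ 10) (sr 0) = sr 0 := by
    obtain ⟨j, hj⟩ := h0
    have h1 := iterate_e0 (hCB.pow_left 2) hj 5
    have h2 : C ^ (j * 5) = 1 := by rw [mul_comm, pow_mul, hC5, one_pow]
    rw [← pow_mul, h2] at h1
    exact h1
  have hBC : Commute (B ^ 10) C := hCB.pow_left 10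
  have hstep : ∀ x, (B ^ 10) x = x → (B ^ 10) (Cf x) = Cf x := fun x h => by
    rw [← hC, ← Module.End.mul_apply, hBC.eq, Module.End.mul_apply, h]
  have f2 : (B ^ 10) (sr 2) = sr 2 := by rw [← Cf_e0.1]; exact hstep _ f0
  have f3 : (B ^ 10) (sr 3) = sr 3 := by rw [← Cf_e0.2.1]; exact hstep _ f2
  have f4 : (B ^ 10) (sr 4) = sr 4 := by rw [← Cf_e0.2.2]; exact hstep _ f3
  have hpm : ∀ x, B x = x ∨ B x = -x → (B ^ 10) x = x := by
    intro x h
    have h1 : (B ^ 2) x = x := by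
      rw [pow_two, Module.End.mul_apply]
      rcases h with h | h
      · rw [h, h]
      · rw [h, map_neg, h, neg_neg]
    rw [show (10 : ℕ) = 2 * 5 from rfl, pow_mul]
    have h2 : ∀ n : ℕ, ((B ^ 2) ^ n) x = x := by
      intro n
      induction n with
      | zero => rfl
      | succ n ih => rw [pow_succ, Module.End.mul_apply, h1, ih]
    exact h2 5
  have ha : B va = va ∨ B va = -va := roots_va _ (hroot _ mem_roots.2) (by rw [← hcm, Cf_va])
  have fa := hpm va ha
  have ht : B vt = vt ∨ B vt = -vt := by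
    have h1 := roots_vt (B (sr 5)) (hroot _ (mem_roots.1 5))
    rw [← hN, Nf_b] at h1
    refine h1 ?_ (hbil _ _)
    have h2 : bil (B vt) (B va) = 0 := by rw [hbil]; exact bil_va_vt
    rcases ha with h | h
    · rwa [h] at h2
    · rw [h, H897.Lat.bil_symm, H897.Lat.bil_neg, H897.Lat.bil_symm, neg_eq_zero] at h2
      exact h2
  have ft := hpm vt ht
  have hcan : ∀ (m : ℤ) (x : V), m ≠ 0 → m • ((B ^ 10) x) = m • x → (B ^ 10) x = x := by
    intro m x hm h
    funext i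
    have h1 := congrFun h i
    rw [Pi.smul_apply, Pi.smul_apply, smul_eq_mul, smul_eq_mul] at h1
    exact mul_left_cancel₀ hm h1
  have f1 : (B ^ 10) (sr 1) = sr 1 := by
    refine hcan 10 _ (by norm_num) ?_
    rw [← map_smul, comb1]
    simp only [map_add, map_smul, f0, f2, f3, f4, fa, ft]
  have f5 : (B ^ 10) (sr 5) = sr 5 := by
    refine hcan 5 _ (by norm_num) ?_
    rw [← map_smul, comb5]
    simp only [map_add, map_smul, f0, f2, f3, f4, ft]
  refine LinearMap.pi_ext' fun i => LinearMap.ext_ring ?_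
  change (B ^ 10) (Pi.single i 1) = Pi.single i 1
  have h1 : (Pi.single i (1 : ℤ) : V) = sr i := rfl
  rw [h1]
  fin_cases i
  · exact f0
  · exact f1
  · exact f2
  · exact f3
  · exact f4
  · exact f5

end Lat

/-- **`W(E₆)` has no elements of order 15 and 20.** -/
theorem pow_ten (w : CoxeterMatrix.E₆.Group) (h5 : 5 ∣ orderOf w) : w ^ 10 = 1 := by
  classical
  have cs : CoxeterSystem CoxeterMatrix.E₆ CoxeterMatrix.E₆.Group := CoxeterMatrix.E₆.toCoxeterSystem
  have hcard : Nat.card CoxeterMatrix.E₆.Group = 51840 :=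
    Cfsg.Agent.S1093.result (⟨6, CoxeterMatrix.E₆⟩, 51840) (by simp)
  have hfin : Finite CoxeterMatrix.E₆.Group := Nat.finite_of_card_ne_zero (by rw [hcard]; norm_num)
  have hp5 : Fact (Nat.Prime 5) := ⟨Nat.prime_five⟩
  have hf : (Nat.card CoxeterMatrix.E₆.Group).factorization 5 = 1 := by
    have h0 : Nat.card CoxeterMatrix.E₆.Group ≠ 0 := Nat.card_pos.ne'
    have h3 := (Nat.prime_five.dvd_iff_one_le_factorization h0).1 (by rw [hcard]; norm_num)
    have h4 : ¬ 2 ≤ (Nat.card CoxeterMatrix.E₆.Group).factorization 5 := fun h => by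
      have h5 := (Nat.prime_five.pow_dvd_iff_le_factorization h0).2 h
      rw [hcard] at h5
      exact absurd h5 (by norm_num)
    omega
  have hpC := (H897.Lat.hp).isCartan
  obtain ⟨c, hcdef⟩ : ∃ c : CoxeterMatrix.E₆.Group, c = cs.simple 0 * cs.simple 2 * cs.simple 3 * cs.simple 4 :=
    ⟨_, rfl⟩
  have hC : ∀ x, rep cs hpC c x = Cf x := fun x => by
    rw [hcdef, rep_mul_apply, rep_mul_apply, rep_mul_apply, rep_simple', rep_simple', rep_simple', rep_simple', Cf]
  have hc5 : c ^ 5 = 1 := by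
    apply rep_injective cs hpC
    rw [map_pow, map_one]
    refine LinearMap.pi_ext' fun i => LinearMap.ext_ring ?_
    change ((rep cs hpC c) ^ 5) (Pi.single i 1) = Pi.single i 1
    have h1 : (Pi.single i (1 : ℤ) : V) = sr i := rfl
    rw [h1, show (5 : ℕ) = 0 + 1 + 1 + 1 + 1 + 1 from rfl]
    simp only [pow_succ, pow_zero, one_mul, Module.End.mul_apply, hC]
    exact Cf_pow i
  have hc1 : c ≠ 1 := fun h => by
    have h1 := hC (sr 0)
    rw [h, map_one, Module.End.one_apply] at h1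
    exact absurd h1 (by decide +kernel)
  have hco : orderOf c = 5 := orderOf_eq_prime hc5 hc1
  obtain ⟨m, hm⟩ := h5
  have hm0 : m ≠ 0 := by
    rintro rfl
    rw [mul_zero] at hm
    exact (orderOf_pos w).ne' hm
  have hu : orderOf (w ^ m) = 5 := by
    rw [orderOf_pow_of_dvd hm0 ⟨5, by rw [hm, mul_comm]⟩, hm, Nat.mul_div_cancel _ (Nat.pos_of_ne_zero hm0)]
  have hcz : ∀ {z : CoxeterMatrix.E₆.Group}, orderOf z = 5 →
      Nat.card ↥(Subgroup.zpowers z) = 5 ^ (Nat.card CoxeterMatrix.E₆.Group).factorization 5 :=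
    fun h => by rw [Nat.card_zpowers, h, hf, pow_one]
  obtain ⟨g, hg⟩ := MulAction.exists_smul_eq CoxeterMatrix.E₆.Group (Sylow.ofCard (Subgroup.zpowers c) (hcz hco))
    (Sylow.ofCard (Subgroup.zpowers (w ^ m)) (hcz hu))
  have h6 : g * c * g⁻¹ ∈ Subgroup.zpowers (w ^ m) := by
    have h7 : ((Sylow.ofCard (Subgroup.zpowers (w ^ m)) (hcz hu)) : Subgroup CoxeterMatrix.E₆.Group) =
      Subgroup.zpowers (w ^ m) := rfl
    rw [← h7, ← hg, Sylow.coe_subgroup_smul]
    exact Subgroup.smul_mem_pointwise_smul c (MulAut.conj g) _ (Subgroup.mem_zpowers c)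
  obtain ⟨j, hj⟩ := Subgroup.mem_zpowers_iff.1 h6
  have hcomm : Commute w (g * c * g⁻¹) := by
    rw [← hj]
    exact ((Commute.refl w).pow_right m).zpow_right j
  have hcomm' : Commute (g⁻¹ * w * g) c := by
    have h7 : c = g⁻¹ * (g * c * g⁻¹) * g := by group
    have h8 : g⁻¹ * w * g * (g⁻¹ * (g * c * g⁻¹) * g) = g⁻¹ * (w * (g * c * g⁻¹)) * g := by group
    have h9 : g⁻¹ * (g * c * g⁻¹) * g * (g⁻¹ * w * g) = g⁻¹ * ((g * c * g⁻¹) * w) * g := by group
    change g⁻¹ * w * g * c = c * (g⁻¹ * w * g)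
    rw [h7, h8, h9, hcomm.eq]
  have hroot : ∀ (v : CoxeterMatrix.E₆.Group), ∀ a ∈ rootList, rep cs hpC v a ∈ rootList := fun v a ha => by
    rw [← isRoot_iff' cs] at ha ⊢
    obtain ⟨u, i, rfl⟩ := ha
    exact ⟨v * u, i, by rw [rep_mul_apply]⟩
  have h10 : (g⁻¹ * w * g) ^ 10 = 1 := by
    apply rep_injective cs hpC
    rw [map_pow, map_one]
    refine pow_ten_lat hC ?_ (fun x y => bil_rep cs _ x y) (hroot _)
    exact hcomm'.map (rep cs hpC)
  have h11 : g⁻¹ * w ^ 10 * g = 1 := by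
    have h12 : (g⁻¹ * w * g) ^ 10 = g⁻¹ * w ^ 10 * g := by
      have h13 := conj_pow (i := 10) (a := g⁻¹) (b := w)
      rw [inv_inv] at h13
      exact h13
    rw [← h12, h10]
  calc w ^ 10 = g * (g⁻¹ * w ^ 10 * g) * g⁻¹ := by group
    _ = 1 := by rw [h11]; group

/-- **Elements of order divisible by 11 or 71.** -/
theorem orderOf_dvd {F : Type u} [Field F] [Fintype F] (hF : Fintype.card F = 5) {x : ↥(chevE6.group F)}
    (hx : (orderOf x).Coprime 5) (h : 11 ∣ orderOf x ∨ 71 ∣ orderOf x) : orderOf x ∣ 5 ^ 10 - 1 := by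
  have h5 : Fact (Nat.Prime 5) := ⟨Nat.prime_five⟩
  have hchar : CharP F 5 := by
    obtain ⟨p, hp⟩ := CharP.exists F
    obtain ⟨n, hp', hc⟩ := FiniteField.card F p
    rw [hF] at hc
    have h6 : p ∣ 5 := by rw [hc]; exact dvd_pow_self p n.ne_zero
    rw [(Nat.prime_dvd_prime_iff_eq hp' Nat.prime_five).1 h6] at hp
    exact hp
  have hcard : Nat.card CoxeterMatrix.E₆.Group = 51840 :=
    Cfsg.Agent.S1093.result (⟨6, CoxeterMatrix.E₆⟩, 51840) (by simp)
  have hfin : Finite CoxeterMatrix.E₆.Group := Nat.finite_of_card_ne_zero (by rw [hcard]; norm_num)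
  have hfg : Finite ↥(chevE6.group F) := inferInstance
  obtain ⟨w, hw⟩ := exists_w H897.Lat.hp CoxeterMatrix.E₆.toCoxeterSystem (F := F) (r := 5) (x := x)
    (orderOf_pos x).ne' hx
  rw [hF] at hw
  have h1 := hw (orderOf w) (pow_orderOf_eq_one w)
  have h2 : 5 ∣ orderOf w := by
    have key : ∀ s : ℕ, s ∣ orderOf x → orderOf ((5 : ℕ) : ZMod s) = 5 → 5 ∣ orderOf w := by
      intro s hs ho
      have h3 := hs.trans h1
      rw [← ho]
      apply orderOf_dvd_of_pow_eq_one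
      have h4 := (ZMod.natCast_eq_zero_iff _ _).2 h3
      rw [Nat.cast_sub (Nat.one_le_pow _ _ (by norm_num)), Nat.cast_pow, Nat.cast_one, sub_eq_zero] at h4
      exact h4
    rcases h with h | h
    · exact key 11 h (orderOf_eq_prime (p := 5) (by decide) (by decide))
    · exact key 71 h (orderOf_eq_prime (p := 5) (by decide) (by decide))
  exact hw 10 (pow_ten w h2)

/-- the non-adjacencies of 11 and 71 -/
theorem nadj_eleven {F : Type u} [Field F] [Fintype F] (hF : Fintype.card F = 5) {r s : ℕ} (hr : r = 11 ∨ r = 71)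
    (hs : s.Prime) (hs5 : s ≠ 5) (hsd : ¬ s ∣ 5 ^ 10 - 1) : ¬ ∃ x : ↥(chevE6.group F), orderOf x = r * s := by
  rintro ⟨x, hx⟩
  have hrp : r.Prime := by rcases hr with rfl | rfl <;> norm_num
  have hr5 : r ≠ 5 := by rcases hr with rfl | rfl <;> norm_num
  apply hsd
  have h1 : (orderOf x).Coprime 5 := by
    rw [hx]
    exact Nat.Coprime.mul_left ((Nat.coprime_primes hrp Nat.prime_five).2 hr5)
      ((Nat.coprime_primes hs Nat.prime_five).2 hs5)
  refine (Dvd.intro_left r hx.symm).trans (orderOf_dvd hF h1 ?_)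
  rw [hx]
  rcases hr with rfl | rfl
  · exact Or.inl (dvd_mul_right _ _)
  · exact Or.inr (dvd_mul_right _ _)

theorem nadj_71_7 {F : Type u} [Field F] [Fintype F] (hF : Fintype.card F = 5) :
    ¬ ∃ x : ↥(chevE6.group F), orderOf x = 71 * 7 :=
  nadj_eleven hF (Or.inr rfl) (by norm_num) (by norm_num) (by norm_num)

theorem nadj_71_13 {F : Type u} [Field F] [Fintype F] (hF : Fintype.card F = 5) :
    ¬ ∃ x : ↥(chevE6.group F), orderOf x = 71 * 13 :=
  nadj_eleven hF (Or.inr rfl) (by norm_num) (by norm_num) (by norm_num)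

theorem nadj_71_19 {F : Type u} [Field F] [Fintype F] (hF : Fintype.card F = 5) :
    ¬ ∃ x : ↥(chevE6.group F), orderOf x = 71 * 19 :=
  nadj_eleven hF (Or.inr rfl) (by norm_num) (by norm_num) (by norm_num)

theorem nadj_71_31 {F : Type u} [Field F] [Fintype F] (hF : Fintype.card F = 5) :
    ¬ ∃ x : ↥(chevE6.group F), orderOf x = 71 * 31 :=
  nadj_eleven hF (Or.inr rfl) (by norm_num) (by norm_num) (by norm_num)

theorem nadj_11_31 {F : Type u} [Field F] [Fintype F] (hF : Fintype.card F = 5) :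
    ¬ ∃ x : ↥(chevE6.group F), orderOf x = 11 * 31 :=
  nadj_eleven hF (Or.inl rfl) (by norm_num) (by norm_num) (by norm_num)

end Cfsg.Agent.H977.E6F
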